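import Mathlib.FieldTheory.Finite.Basic
import Mathlib.SetTheory.Cardinal.Finite
import Mathlib.Tactic.Module

/-! Avoiding finitely many subsets closed under lines, over a field with enough elements. -/

set_option autoImplicit false

namespace Cfsg.Agent.KnownB.LU

universe u v

variable {K : Type u} [Field K] {E : Type v} [AddCommGroup E] [Module K E]

/-- There are more than `m` scalars. -/
def Large (K : Type u) (m : ℕ) : Prop := ∀ s : Finset K, s.card ≤ m → ∃ a, a ∉ s

/-- `B` meets every line of `S` at most once, or contains its two base points. -/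
def LineClosed (S B : E → Prop) : Prop :=
  ∀ x y : E, ∀ s t : K, S x → S y → B (x + s • (y - x)) → B (x + t • (y - x)) → s ≠ t → B x ∧ B y

theorem avoid {m : ℕ} (hK : Large K m) (S : E → Prop) (hne : ∃ x, S x)
    (hS : ∀ x y, S x → S y → ∀ s : K, S (x + s • (y - x))) :
    ∀ l : List (E → Prop), l.length ≤ m → (∀ B ∈ l, LineClosed (K := K) S B) →
      (∀ B ∈ l, ∃ x, S x ∧ ¬ B x) → ∃ x, S x ∧ ∀ B ∈ l, ¬ B x := by
  intro l
  induction l with
  | nil => exact fun _ _ _ => ⟨hne.choose, hne.choose_spec, fun _ h => absurd h List.not_mem_nil⟩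
  | cons B l ih =>
    intro hlen hlc hgood
    classical
    rw [List.length_cons] at hlen
    obtain ⟨x, hx, hxl⟩ := ih (by omega) (fun C hC => hlc C (List.mem_cons_of_mem _ hC))
      fun C hC => hgood C (List.mem_cons_of_mem _ hC)
    obtain ⟨y, hy, hyB⟩ := hgood B List.mem_cons_self
    have hone : ∀ C ∈ B :: l, ∀ s t : K, C (x + s • (y - x)) → C (x + t • (y - x)) → s = t := by
      intro C hC s t hs ht
      by_contra hne'
      obtain ⟨hCx, hCy⟩ := hlc C hC x y s t hx hy hs ht hne'
      rcases List.mem_cons.mp hC with rfl | hC'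
      · exact hyB hCy
      · exact hxl C hC' hCx
    let pick : (E → Prop) → K := fun C => if h : ∃ s : K, C (x + s • (y - x)) then h.choose else 0
    obtain ⟨a, ha⟩ := hK ((B :: l).map pick).toFinset
      ((List.toFinset_card_le _).trans (by simp; omega))
    refine ⟨x + a • (y - x), hS x y hx hy a, fun C hC hbad => ha ?_⟩
    have hex : ∃ s : K, C (x + s • (y - x)) := ⟨a, hbad⟩
    refine List.mem_toFinset.mpr (List.mem_map.mpr ⟨C, hC, ?_⟩)
    simp only [pick, dif_pos hex]
    exact hone C hC _ _ hex.choose_spec hbad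

theorem lineClosed_submodule (S : E → Prop) (U : Submodule K E) : LineClosed (K := K) S (· ∈ U) := by
  intro x y s t _ _ hs ht hst
  have hd : (s - t) • (y - x) ∈ U := by
    convert sub_mem hs ht using 1
    module
  have hd' : y - x ∈ U := (U.smul_mem_iff (sub_ne_zero.mpr hst)).mp hd
  have hx : x ∈ U := by
    convert sub_mem hs (U.smul_mem s hd') using 1
    module
  exact ⟨hx, by simpa using add_mem hx hd'⟩

theorem large_three (hK : 4 ≤ Cardinal.mk K) : Large K 3 := by
  intro s hs
  by_contra hall
  push Not at hall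
  have h1 : Cardinal.mk K ≤ (s.card : Cardinal) := by
    have hinj : Function.Injective fun a : K => (⟨a, hall a⟩ : s) :=
      fun a b h => congrArg Subtype.val h
    have := Cardinal.mk_le_of_injective hinj
    rwa [Cardinal.mk_coe_finset] at this
  have h2 : (4 : Cardinal) ≤ (s.card : Cardinal) := hK.trans h1
  have : 4 ≤ s.card := by exact_mod_cast h2
  omega

theorem large_four (hK : 4 ≤ Cardinal.mk K) (h2 : (2 : K) ≠ 0) : Large K 4 := by
  intro s hs
  by_contra hall
  push Not at hall
  have h3 := large_three hK
  letI : Fintype K := ⟨s, hall⟩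
  have hcard : Fintype.card K = s.card := rfl
  rcases Nat.lt_or_ge s.card 4 with h | h
  · obtain ⟨a, ha⟩ := h3 s (by omega)
    exact ha (hall a)
  · have e : ((4 : ℕ) : K) = 0 := by
      rw [show 4 = Fintype.card K by omega, FiniteField.cast_card_eq_zero]
    exact h2 (mul_self_eq_zero.mp (by linear_combination e))

end Cfsg.Agent.KnownB.LU
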