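import Mathlib.LinearAlgebra.Matrix.ToLin
import Mathlib.LinearAlgebra.Basis.Fin
import Mathlib.LinearAlgebra.Determinant
import Mathlib.Tactic.Module

/-! One step of the factorisation of a linear map into a lower and an upper regular unipotent map. -/

set_option autoImplicit false

namespace Cfsg.Agent.KnownB.LU

open Module Matrix

universe u v

variable {K : Type u} [Field K] {V : Type v} [AddCommGroup V] [Module K V]

/-- Upper unitriangular with non-zero super-diagonal. -/
def UReg {m : ℕ} (U : Matrix (Fin m) (Fin m) K) : Prop :=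
  (∀ i, U i i = 1) ∧ (∀ i j, j < i → U i j = 0) ∧ ∀ i j : Fin m, (j : ℕ) = i + 1 → U i j ≠ 0

/-- Bordering by a first column. -/
def lb {m : ℕ} (c : Fin m → K) (L : Matrix (Fin m) (Fin m) K) : Matrix (Fin (m + 1)) (Fin (m + 1)) K :=
  fun i => Fin.cases (motive := fun _ => Fin (m + 1) → K) (Fin.cons 1 0)
    (fun i => Fin.cons (c i) (L i)) i

/-- Bordering by a first row. -/
def ub {m : ℕ} (r : Fin m → K) (U : Matrix (Fin m) (Fin m) K) : Matrix (Fin (m + 1)) (Fin (m + 1)) K :=
  fun i => Fin.cases (motive := fun _ => Fin (m + 1) → K) (Fin.cons 1 r)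
    (fun i => Fin.cons 0 (U i)) i

variable {m : ℕ} (c r : Fin m → K) (L U : Matrix (Fin m) (Fin m) K)

theorem lb_zero_zero : lb c L 0 0 = 1 := rfl
theorem lb_zero_succ (j : Fin m) : lb c L 0 j.succ = 0 := by simp [lb]
theorem lb_succ_zero (i : Fin m) : lb c L i.succ 0 = c i := by simp [lb]
theorem lb_succ_succ (i j : Fin m) : lb c L i.succ j.succ = L i j := by simp [lb]
theorem ub_zero_zero : ub r U 0 0 = 1 := rfl
theorem ub_zero_succ (j : Fin m) : ub r U 0 j.succ = r j := by simp [ub]
theorem ub_succ_zero (i : Fin m) : ub r U i.succ 0 = 0 := by simp [ub]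
theorem ub_succ_succ (i j : Fin m) : ub r U i.succ j.succ = U i j := by simp [ub]

theorem border_mul : lb c L * ub r U =
    Matrix.of fun i j => Fin.cases (Fin.cases 1 r j)
      (fun i => Fin.cases (c i) (fun j => c i * r j + (L * U) i j) j) i := by
  ext i j
  rw [Matrix.mul_apply, Fin.sum_univ_succ, Matrix.of_apply]
  induction i using Fin.cases <;> induction j using Fin.cases <;>
    simp [lb_zero_zero, lb_zero_succ, lb_succ_zero, lb_succ_succ, ub_zero_zero, ub_zero_succ,
      ub_succ_zero, ub_succ_succ, Matrix.mul_apply]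

theorem det_lb : (lb c L).det = L.det := by
  rw [Matrix.det_succ_row_zero, Fin.sum_univ_succ]
  simp only [lb_zero_zero, lb_zero_succ, Fin.val_zero, pow_zero, one_mul, mul_zero, zero_mul,
    Finset.sum_const_zero, add_zero]
  congr 1

theorem det_ub : (ub r U).det = U.det := by
  rw [Matrix.det_succ_column_zero, Fin.sum_univ_succ]
  simp only [ub_zero_zero, ub_succ_zero, Fin.val_zero, pow_zero, one_mul, mul_zero, zero_mul,
    Finset.sum_const_zero, add_zero]
  congr 1

theorem ureg_ub {r : Fin (m + 1) → K} {U : Matrix (Fin (m + 1)) (Fin (m + 1)) K} (hr : r 0 ≠ 0)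
    (hU : UReg U) : UReg (ub r U) := by
  obtain ⟨h1, h2, h3⟩ := hU
  refine ⟨fun i => ?_, fun i j hij => ?_, fun i j hij => ?_⟩
  · induction i using Fin.cases with
    | zero => rfl
    | succ i => rw [ub_succ_succ]; exact h1 i
  · induction i using Fin.cases with
    | zero => exact absurd hij (Fin.not_lt_zero _)
    | succ i =>
      induction j using Fin.cases with
      | zero => rw [ub_succ_zero]
      | succ j => rw [ub_succ_succ]; exact h2 i j (Fin.succ_lt_succ_iff.mp hij)
  · induction j using Fin.cases with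
    | zero => simp at hij
    | succ j =>
      induction i using Fin.cases with
      | zero =>
        rw [ub_zero_succ]
        obtain rfl : j = 0 := Fin.ext (by simpa using hij)
        exact hr
      | succ i => rw [ub_succ_succ]; exact h3 i j (by simpa using hij)

theorem transpose_lb : (lb c L).transpose = ub c L.transpose := by
  ext i j
  rw [Matrix.transpose_apply]
  induction i using Fin.cases <;> induction j using Fin.cases <;>
    simp [lb_zero_zero, lb_zero_succ, lb_succ_zero, lb_succ_succ, ub_zero_zero, ub_zero_succ,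
      ub_succ_zero, ub_succ_succ]

/-- The factorisation with control on the first basis vector. -/
def Good (A : V →ₗ[K] V) (m : ℕ) (c₀ : V) (r₀ : V →ₗ[K] K) : Prop :=
  ∃ (b : Basis (Fin (m + 1)) K V) (L U : Matrix (Fin (m + 1)) (Fin (m + 1)) K),
    LinearMap.toMatrix b b A = L * U ∧ UReg L.transpose ∧ UReg U ∧ b.repr c₀ 0 ≠ 0 ∧ r₀ (b 0) ≠ 0

variable (A : V →ₗ[K] V) (x : V) (φ : V →ₗ[K] K)

/-- The Schur complement of the first pivot. -/
def schur (hAx : φ (A x) = 1) : LinearMap.ker φ →ₗ[K] LinearMap.ker φ :=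
  ((A - (φ.comp A).smulRight (A x)).comp (LinearMap.ker φ).subtype).codRestrict _ fun w => by
    simp [hAx]

theorem schur_apply (hAx : φ (A x) = 1) (w : LinearMap.ker φ) :
    (schur A x φ hAx w : V) = A w - φ (A w) • A x := rfl

/-- The part of a vector in the kernel. -/
def kerPart (hx : φ x = 1) : V →ₗ[K] LinearMap.ker φ :=
  (LinearMap.id - φ.smulRight x).codRestrict _ fun v => by simp [hx]

theorem kerPart_apply (hx : φ x = 1) (v : V) : (kerPart x φ hx v : V) = v - φ v • x := rfl

/-- A basis with first vector `x`, completed in the kernel of `φ`. -/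
noncomputable def consBasis (hx : φ x = 1) (b : Basis (Fin m) K (LinearMap.ker φ)) :
    Basis (Fin (m + 1)) K V :=
  Basis.mkFinCons x b
    (fun a w hw h => by
      have := congrArg φ h
      rw [map_add, map_smul, hx, LinearMap.mem_ker.mp hw, map_zero, add_zero, smul_eq_mul,
        mul_one] at this
      exact this)
    fun z => ⟨-φ z, by simp [hx]⟩

theorem consBasis_zero (hx : φ x = 1) (b : Basis (Fin m) K (LinearMap.ker φ)) :
    consBasis x φ hx b 0 = x := by
  simp [consBasis, Basis.coe_mkFinCons]

theorem consBasis_succ (hx : φ x = 1) (b : Basis (Fin m) K (LinearMap.ker φ)) (j : Fin m) :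
    consBasis x φ hx b j.succ = b j := by
  simp [consBasis, Basis.coe_mkFinCons]

theorem consBasis_repr (hx : φ x = 1) (b : Basis (Fin m) K (LinearMap.ker φ)) (v : V) :
    (consBasis x φ hx b).repr v 0 = φ v ∧
      ∀ i, (consBasis x φ hx b).repr v i.succ = b.repr (kerPart x φ hx v) i := by
  set B := consBasis x φ hx b with hB
  have hk0 : kerPart x φ hx x = 0 := Subtype.ext (by simp [kerPart_apply, hx])
  have hk : ∀ w : LinearMap.ker φ, kerPart x φ hx w = w := fun w => Subtype.ext (by
    simp [kerPart_apply, LinearMap.mem_ker.mp w.2])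
  have h0 : B.coord 0 = φ := B.ext fun i => by
    induction i using Fin.cases with
    | zero => rw [Basis.coord_apply, Basis.repr_self, hB, consBasis_zero, hx, Finsupp.single_eq_same]
    | succ j =>
      rw [Basis.coord_apply, Basis.repr_self, hB, consBasis_succ, LinearMap.mem_ker.mp (b j).2,
        Finsupp.single_eq_of_ne (Fin.succ_ne_zero j).symm]
  have h1 : ∀ k, B.coord k.succ = (b.coord k).comp (kerPart x φ hx) := fun k => B.ext fun i => by
    induction i using Fin.cases with
    | zero =>
      rw [LinearMap.comp_apply, Basis.coord_apply, Basis.repr_self, hB, consBasis_zero, hk0, map_zero,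
        Finsupp.single_eq_of_ne (Fin.succ_ne_zero k)]
    | succ j =>
      rw [LinearMap.comp_apply, Basis.coord_apply, Basis.repr_self, hB, consBasis_succ, hk,
        Basis.coord_apply, Basis.repr_self]
      rcases eq_or_ne k j with rfl | hne
      · rw [Finsupp.single_eq_same, Finsupp.single_eq_same]
      · rw [Finsupp.single_eq_of_ne hne, Finsupp.single_eq_of_ne ((Fin.succ_injective m).ne hne)]
  exact ⟨LinearMap.congr_fun h0 v, fun i => LinearMap.congr_fun (h1 i) v⟩

/-- The matrix in a completed basis. -/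
theorem toMatrix_cons (hx : φ x = 1) (hAx : φ (A x) = 1) (b : Basis (Fin m) K (LinearMap.ker φ))
    (L U : Matrix (Fin m) (Fin m) K) (hLU : LinearMap.toMatrix b b (schur A x φ hAx) = L * U) :
    LinearMap.toMatrix (consBasis x φ hx b) (consBasis x φ hx b) A =
      lb (fun i => b.repr ⟨A x - x, by simp [hx, hAx]⟩ i) L * ub (fun j => φ (A (b j : V))) U := by
  rw [border_mul]
  ext i j
  rw [LinearMap.toMatrix_apply, Matrix.of_apply]
  have hkx : kerPart x φ hx (A x) = ⟨A x - x, by simp [hx, hAx]⟩ := Subtype.ext (by simp [kerPart_apply, hAx])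
  induction j using Fin.cases with
  | zero =>
    rw [consBasis_zero]
    induction i using Fin.cases with
    | zero => rw [(consBasis_repr x φ hx b _).1]; simp [hAx]
    | succ i => rw [(consBasis_repr x φ hx b _).2, hkx]; simp
  | succ j =>
    rw [consBasis_succ]
    induction i using Fin.cases with
    | zero => rw [(consBasis_repr x φ hx b _).1]; simp
    | succ i =>
      have hk : kerPart x φ hx (A (b j : V)) =
          φ (A (b j : V)) • (⟨A x - x, by simp [hx, hAx]⟩ : LinearMap.ker φ) +
            schur A x φ hAx (b j) := Subtype.ext (by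
        simp [kerPart_apply, schur_apply, smul_sub])
      rw [(consBasis_repr x φ hx b _).2, hk, map_add, map_smul, ← hLU]
      simp [LinearMap.toMatrix_apply, mul_comm]

theorem det_schur [FiniteDimensional K V] (hx : φ x = 1) (hAx : φ (A x) = 1)
    (b : Basis (Fin m) K (LinearMap.ker φ)) :
    LinearMap.det A = LinearMap.det (schur A x φ hAx) := by
  rw [← LinearMap.det_toMatrix (consBasis x φ hx b),
    toMatrix_cons A x φ hx hAx b 1 _ (Matrix.one_mul _).symm, Matrix.det_mul, det_lb, det_ub,
    Matrix.det_one, one_mul, LinearMap.det_toMatrix]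

/-- One step. -/
theorem good_step {c₀ : V} {r₀ : V →ₗ[K] K} (hx : φ x = 1) (hAx : φ (A x) = 1)
    (hc₀ : φ c₀ ≠ 0) (hr₀ : r₀ x ≠ 0)
    (h : Good (schur A x φ hAx) m ⟨A x - x, by simp [hx, hAx]⟩
      ((φ.comp A).comp (LinearMap.ker φ).subtype)) :
    Good A (m + 1) c₀ r₀ := by
  obtain ⟨b, L, U, hLU, hL, hU, hc, hr⟩ := h
  refine ⟨consBasis x φ hx b, lb (fun i => b.repr ⟨A x - x, by simp [hx, hAx]⟩ i) L,
    ub (fun j => φ (A (b j : V))) U, toMatrix_cons A x φ hx hAx b L U hLU, ?_, ureg_ub hr hU, ?_, ?_⟩
  · rw [transpose_lb]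
    exact ureg_ub hc hL
  · rw [(consBasis_repr x φ hx b c₀).1]; exact hc₀
  · rw [consBasis_zero]; exact hr₀

end Cfsg.Agent.KnownB.LU
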