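import Cfsg.Agent.KnownB.LU.Avoid
import Cfsg.Agent.KnownB.LU.Step
import Mathlib.LinearAlgebra.Dual.Lemmas
import Mathlib.LinearAlgebra.FiniteDimensional.Lemmas

/-! A non-scalar map of determinant one, not a transvection, is a product of a lower and an upper
regular unipotent map in a suitable basis. -/

set_option autoImplicit false
set_option maxHeartbeats 1000000

namespace Cfsg.Agent.KnownB.LU

open Module Matrix

universe u v

variable {K : Type u} [Field K] {V : Type v} [AddCommGroup V] [Module K V] [FiniteDimensional K V]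
  (A : V →ₗ[K] V)

local notation "𝐌" => (A - LinearMap.id : V →ₗ[K] V)

theorem exists_outside {U : Submodule K V} (h : U ≠ ⊤) : ∃ v, v ∉ U := by
  by_contra hall
  push Not at hall
  exact h (eq_top_iff.mpr fun v _ => hall v)

theorem comap_span_ne_top {c₀ : V} (hrk : 2 ≤ finrank K (LinearMap.range (A - LinearMap.id : V →ₗ[K] V))) :
    (Submodule.span K {c₀}).comap 𝐌 ≠ ⊤ := by
  intro h
  have hle : LinearMap.range 𝐌 ≤ Submodule.span K {c₀} := by
    rintro _ ⟨v, rfl⟩
    exact (h ▸ Submodule.mem_top : v ∈ (Submodule.span K {c₀}).comap 𝐌)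
  have h1 := (Submodule.finrank_mono hle).trans (finrank_span_le_card ({c₀} : Set V))
  simp at h1
  omega

/-- The first basis vector. -/
theorem choose_vec (hK : Large K 3) (hns : ¬ ∃ a : K, ∀ v, A v = a • v)
    (hrk : 2 ≤ finrank K (LinearMap.range (A - LinearMap.id : V →ₗ[K] V))) {c₀ : V}
    {r₀ : V →ₗ[K] K} (hr₀ : r₀ ≠ 0) :
    ∃ x, r₀ x ≠ 0 ∧ A x - x ∉ Submodule.span K {c₀} ∧
      (LinearMap.range 𝐌 = ⊤ ∨ x ∉ LinearMap.range 𝐌) ∧ ∀ a : K, A x ≠ a • x := by
  classical
  set S₁ := (Submodule.span K {c₀}).comap 𝐌 with hS₁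
  have hS₁' : ∀ v, v ∈ S₁ ↔ A v - v ∈ Submodule.span K {c₀} := fun v => Iff.rfl
  have hker : LinearMap.ker r₀ ≠ ⊤ := fun h => hr₀ (LinearMap.ker_eq_top.mp h)
  have hline : ∀ x y : V, True → True → ∀ s : K, True := fun _ _ _ _ _ => trivial
  by_cases hM : LinearMap.range 𝐌 = ⊤
  · obtain ⟨x₀, -, hx₀⟩ := avoid hK (fun _ : V => True) ⟨0, trivial⟩ hline
      [(· ∈ LinearMap.ker r₀), (· ∈ S₁)] (by simp)
      (List.forall_mem_cons.mpr ⟨lineClosed_submodule _ _,
        List.forall_mem_cons.mpr ⟨lineClosed_submodule _ _, fun _ h => absurd h List.not_mem_nil⟩⟩)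
      (List.forall_mem_cons.mpr ⟨(exists_outside hker).imp fun _ h => ⟨trivial, h⟩,
        List.forall_mem_cons.mpr ⟨(exists_outside (comap_span_ne_top A hrk)).imp fun _ h => ⟨trivial, h⟩,
          fun _ h => absurd h List.not_mem_nil⟩⟩)
    have hr : r₀ x₀ ≠ 0 := fun h => hx₀ _ List.mem_cons_self (LinearMap.mem_ker.mpr h)
    have hs : x₀ ∉ S₁ := hx₀ _ (List.mem_cons_of_mem _ List.mem_cons_self)
    by_cases he : ∀ a : K, A x₀ ≠ a • x₀
    · exact ⟨x₀, hr, hs, Or.inl hM, he⟩
    push Not at he
    obtain ⟨l, hl⟩ := he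
    obtain ⟨y, hy, hly⟩ : ∃ y, r₀ y = 0 ∧ A y ≠ l • y := by
      by_contra hall
      push Not at hall
      refine hns ⟨l, fun v => ?_⟩
      have := hall (v - (r₀ v / r₀ x₀) • x₀) (by simp [div_mul_cancel₀ _ hr])
      rw [map_sub, map_smul, hl, smul_sub, smul_comm, sub_left_inj] at this
      exact this
    have hyx : ∀ a : K, a • y ≠ 0 → ∀ b : K, a • y ≠ b • x₀ := fun a ha b hab => by
      have := congrArg r₀ hab
      rw [map_smul, map_smul, hy, smul_zero, smul_eq_mul, eq_comm, mul_eq_zero] at this
      rw [this.resolve_right hr, zero_smul] at hab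
      exact ha hab
    have hy0 : y ≠ 0 := fun h => hly (by rw [h, map_zero, smul_zero])
    let b₁ : K := if h : ∃ s : K, x₀ + s • y ∈ S₁ then h.choose else 0
    let b₂ : K := if h : ∃ s : K, s ≠ 0 ∧ ∃ a : K, A (x₀ + s • y) = a • (x₀ + s • y) then h.choose else 0
    obtain ⟨s, hsn⟩ := hK {0, b₁, b₂} (Finset.card_le_three)
    simp only [Finset.mem_insert, Finset.mem_singleton, not_or] at hsn
    obtain ⟨hs0, hsb₁, hsb₂⟩ := hsn
    refine ⟨x₀ + s • y, by simpa [hy] using hr, fun hmem => hsb₁ ?_, Or.inl hM, fun a ha => hsb₂ ?_⟩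
    · have hex : ∃ s : K, x₀ + s • y ∈ S₁ := ⟨s, hmem⟩
      simp only [b₁, dif_pos hex]
      by_contra hne
      have h1 : (s - hex.choose) • y ∈ S₁ := by
        have := sub_mem (show x₀ + s • y ∈ S₁ from hmem) hex.choose_spec
        simpa [sub_smul] using this
      have h2 := S₁.smul_mem s ((S₁.smul_mem_iff (sub_ne_zero.mpr hne)).mp h1)
      exact hs (by simpa using sub_mem (show x₀ + s • y ∈ S₁ from hmem) h2)
    · have hex : ∃ s : K, s ≠ 0 ∧ ∃ a : K, A (x₀ + s • y) = a • (x₀ + s • y) := ⟨s, hs0, a, ha⟩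
      simp only [b₂, dif_pos hex]
      obtain ⟨ht0, e, he⟩ := hex.choose_spec
      set t := hex.choose with ht
      have k1 : s • A y = (a - l) • x₀ + (a * s) • y := by
        rw [map_add, map_smul, hl] at ha
        linear_combination (norm := module) ha
      have k2 : t • A y = (e - l) • x₀ + (e * t) • y := by
        rw [map_add, map_smul, hl] at he
        linear_combination (norm := module) he
      have k3 : ((e * t) * s - (a * s) * t) • y = (t * (a - l) - s * (e - l)) • x₀ := by
        linear_combination (norm := module) t • k1 - s • k2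
      have hae : e = a := by
        by_contra hne
        refine hyx _ (smul_ne_zero ?_ hy0) _ k3
        rw [show e * t * s - a * s * t = (e - a) * (s * t) by ring]
        exact mul_ne_zero (sub_ne_zero.mpr hne) (mul_ne_zero hs0 ht0)
      subst hae
      by_contra hne
      have k4 : (t - s) * (e - l) = 0 := by
        have : (0 : V) = (t * (e - l) - s * (e - l)) • x₀ := by
          rw [← k3, show e * t * s - e * s * t = 0 by ring, zero_smul]
        rcases smul_eq_zero.mp this.symm with h | h
        · linear_combination h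
        · exact absurd (by rw [h, map_zero]) hr
      rcases mul_eq_zero.mp k4 with h | h
      · exact hne (sub_eq_zero.mp h).symm
      · rw [h, zero_smul, zero_add, mul_comm, ← smul_smul] at k1
        have := smul_right_injective V hs0 k1
        exact hly (by rw [this, sub_eq_zero.mp h])
  · obtain ⟨x, -, hx⟩ := avoid hK (fun _ : V => True) ⟨0, trivial⟩ hline
      [(· ∈ LinearMap.ker r₀), (· ∈ S₁), (· ∈ LinearMap.range 𝐌)] (by simp)
      (List.forall_mem_cons.mpr ⟨lineClosed_submodule _ _,
        List.forall_mem_cons.mpr ⟨lineClosed_submodule _ _,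
          List.forall_mem_cons.mpr ⟨lineClosed_submodule _ _, fun _ h => absurd h List.not_mem_nil⟩⟩⟩)
      (List.forall_mem_cons.mpr ⟨(exists_outside hker).imp fun _ h => ⟨trivial, h⟩,
        List.forall_mem_cons.mpr ⟨(exists_outside (comap_span_ne_top A hrk)).imp fun _ h => ⟨trivial, h⟩,
          List.forall_mem_cons.mpr ⟨(exists_outside hM).imp fun _ h => ⟨trivial, h⟩,
            fun _ h => absurd h List.not_mem_nil⟩⟩⟩)
    have hs : x ∉ S₁ := hx _ (List.mem_cons_of_mem _ List.mem_cons_self)
    have hR : x ∉ LinearMap.range 𝐌 :=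
      hx _ (List.mem_cons_of_mem _ (List.mem_cons_of_mem _ List.mem_cons_self))
    refine ⟨x, fun h => hx _ List.mem_cons_self (LinearMap.mem_ker.mpr h), hs, Or.inr hR, fun a ha => ?_⟩
    by_cases ha1 : a = 1
    · exact hs ((hS₁' x).mpr (by rw [ha, ha1, one_smul, sub_self]; exact zero_mem _))
    · refine hR ⟨(a - 1)⁻¹ • x, ?_⟩
      rw [map_smul, LinearMap.sub_apply, LinearMap.id_apply, ha]
      rw [show a • x - x = (a - 1) • x by rw [sub_smul, one_smul], smul_smul,
        inv_mul_cancel₀ (sub_ne_zero.mpr ha1), one_smul]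

/-- A functional non-zero at a given vector outside the line. -/
theorem exists_functional {x c v : V} (hxc : x ∉ Submodule.span K {c})
    (hv : v ∉ Submodule.span K {c}) :
    ∃ φ : V →ₗ[K] K, φ x = 1 ∧ φ c = 0 ∧ φ v ≠ 0 := by
  obtain ⟨f, hf, hfc⟩ := Submodule.exists_dual_map_eq_bot_of_notMem hxc inferInstance
  have hc0 : f c = 0 := by
    have := Submodule.mem_map_of_mem (f := f) (Submodule.mem_span_singleton_self c)
    rwa [hfc, Submodule.mem_bot] at this
  set φ : V →ₗ[K] K := (f x)⁻¹ • f with hφ
  have hφx : φ x = 1 := by simp [hφ, inv_mul_cancel₀ hf]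
  have hφc : φ c = 0 := by simp [hφ, hc0]
  by_cases hφv : φ v ≠ 0
  · exact ⟨φ, hφx, hφc, hφv⟩
  push Not at hφv
  have hv' : v ∉ Submodule.span K {x, c} := fun h => by
    obtain ⟨a, b, rfl⟩ := Submodule.mem_span_pair.mp h
    rw [map_add, map_smul, map_smul, hφx, hφc, smul_zero, add_zero, smul_eq_mul, mul_one] at hφv
    exact hv (by rw [hφv, zero_smul, zero_add]; exact Submodule.smul_mem _ _ (Submodule.mem_span_singleton_self c))
  obtain ⟨g, hg, hgxc⟩ := Submodule.exists_dual_map_eq_bot_of_notMem hv' inferInstance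
  have hg0 : ∀ w ∈ ({x, c} : Set V), g w = 0 := fun w hw => by
    have := Submodule.mem_map_of_mem (f := g) (Submodule.subset_span hw)
    rwa [hgxc, Submodule.mem_bot] at this
  exact ⟨φ + g, by simp [hφx, hg0 x], by simp [hφc, hg0 c], by simpa [hφv] using hg⟩

theorem finrank_ker_functional {φ : V →ₗ[K] K} {x : V} (hx : φ x = 1) :
    finrank K (LinearMap.ker φ) + 1 = finrank K V := by
  have h := LinearMap.finrank_range_add_finrank_ker φ
  rw [LinearMap.range_eq_top.mpr (fun a => ⟨a • x, by simp [hx]⟩), finrank_top, finrank_self] at h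
  omega

/-- The kernel of the Schur complement minus one. -/
theorem schur_fixed_iff {x : V} {φ : V →ₗ[K] K} (hAx : φ (A x) = 1) (w : LinearMap.ker φ) :
    schur A x φ hAx w = w ↔ (w : V) ∈ (Submodule.span K {A x}).comap 𝐌 := by
  rw [Subtype.ext_iff, schur_apply, Submodule.mem_comap, Submodule.mem_span_singleton,
    LinearMap.sub_apply, LinearMap.id_apply]
  constructor
  · intro h
    exact ⟨φ (A w), by linear_combination (norm := module) -h⟩
  · rintro ⟨a, ha⟩
    have h1 := congrArg φ ha
    rw [map_smul, map_sub, hAx, LinearMap.mem_ker.mp w.2, sub_zero, smul_eq_mul, mul_one] at h1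
    rw [← h1]
    linear_combination (norm := module) -ha

/-- In dimension three the preimage of the line of `A x` leaves the line of `A x - x`. -/
theorem not_le_line (h3 : finrank K V = 3) (hdet : LinearMap.det A = 1)
    (hrk : 2 ≤ finrank K (LinearMap.range (A - LinearMap.id : V →ₗ[K] V))) {x : V}
    (hxc : x ∉ Submodule.span K {A x - x}) (hc : A x - x ≠ 0)
    (hR : LinearMap.range 𝐌 = ⊤ ∨ x ∉ LinearMap.range 𝐌)
    (hN : 0 < finrank K ((Submodule.span K {A x}).comap 𝐌)) :
    ¬ (Submodule.span K {A x}).comap 𝐌 ≤ Submodule.span K {A x - x} := by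
  intro hle
  set c := A x - x with hcdef
  have heq : (Submodule.span K {A x}).comap 𝐌 = Submodule.span K {c} :=
    Submodule.eq_of_le_of_finrank_le hle (by rw [finrank_span_singleton hc]; omega)
  obtain ⟨φ, hx, hφc, -⟩ := exists_functional hxc hxc
  have hAx : φ (A x) = 1 := by
    have : φ (A x - x) = 0 := hφc
    rwa [map_sub, hx, sub_eq_zero] at this
  let cw : LinearMap.ker φ := ⟨c, LinearMap.mem_ker.mpr hφc⟩
  have hfix : schur A x φ hAx cw = cw :=
    (schur_fixed_iff A hAx cw).mpr (heq ▸ Submodule.mem_span_singleton_self c)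
  have hW : finrank K (LinearMap.ker φ) = 2 := by have := finrank_ker_functional hx; omega
  obtain ⟨w, hw⟩ : ∃ w : LinearMap.ker φ, w ∉ Submodule.span K {cw} := by
    refine exists_outside fun h => ?_
    have h1 := finrank_span_le_card (R := K) ({cw} : Set (LinearMap.ker φ))
    rw [h, finrank_top, hW] at h1
    simp at h1
  have hli : LinearIndependent K ![cw, w] := by
    rw [LinearIndependent.pair_iff]
    intro s t hst
    have ht : t = 0 := by
      by_contra ht
      refine hw (Submodule.mem_span_singleton.mpr ⟨-(t⁻¹ * s), ?_⟩)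
      have := congrArg (t⁻¹ • ·) hst
      simp only [smul_add, smul_smul, inv_mul_cancel₀ ht, one_smul, smul_zero] at this
      rw [neg_smul]
      exact (eq_neg_of_add_eq_zero_right this).symm
    subst ht
    rw [zero_smul, add_zero, smul_eq_zero] at hst
    exact ⟨hst.resolve_right fun h => hc (congrArg Subtype.val h), rfl⟩
  let b := basisOfLinearIndependentOfCardEqFinrank hli (by simp [hW])
  have hb : ⇑b = ![cw, w] := coe_basisOfLinearIndependentOfCardEqFinrank hli _
  have hdet' := det_schur A x φ hx hAx b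
  rw [hdet, ← LinearMap.det_toMatrix b, Matrix.det_fin_two] at hdet'
  simp only [LinearMap.toMatrix_apply, hb, Matrix.cons_val_zero, Matrix.cons_val_one, hfix] at hdet'
  rw [show b.repr cw = Finsupp.single 0 1 by
    rw [show cw = b 0 by rw [hb]; rfl, Basis.repr_self]] at hdet'
  simp at hdet'
  -- the range lies in the plane of `x` and `c`
  have hrange : LinearMap.range 𝐌 ≤ Submodule.span K {x, c} := by
    rintro _ ⟨v, rfl⟩
    have hk := LinearMap.congr_fun (show (schur A x φ hAx - LinearMap.id) =
        ((b.coord 1).smulRight ((b.repr (schur A x φ hAx w) 0) • cw) :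
          LinearMap.ker φ →ₗ[K] LinearMap.ker φ) by
      refine b.ext fun i => ?_
      fin_cases i
      · simp [hb, hfix, show b.repr cw = Finsupp.single 0 1 by
          rw [show cw = b 0 by rw [hb]; rfl, Basis.repr_self]]
      · have e := b.sum_repr (schur A x φ hAx w)
        rw [Fin.sum_univ_two, ← hdet', one_smul, hb] at e
        simp only [Matrix.cons_val_zero, Matrix.cons_val_one] at e
        have h1 : b.repr w = Finsupp.single 1 1 := by
          rw [show w = b 1 by rw [hb]; rfl, Basis.repr_self]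
        simp [hb, h1]
        linear_combination (norm := module) -e) (kerPart x φ hx v)
    rw [LinearMap.sub_apply, LinearMap.id_apply, LinearMap.smulRight_apply] at hk
    have hk' := congrArg Subtype.val hk
    rw [Submodule.coe_sub, schur_apply, kerPart_apply, Submodule.coe_smul, Submodule.coe_smul] at hk'
    refine Submodule.mem_span_pair.mpr ⟨φ (A (v - φ v • x)), φ v + φ (A (v - φ v • x)) +
      (b.coord 1) (kerPart x φ hx v) * b.repr (schur A x φ hAx w) 0, ?_⟩
    rw [LinearMap.sub_apply, LinearMap.id_apply]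
    simp only [map_sub, map_smul, cw, hcdef] at hk' ⊢
    linear_combination (norm := module) -hk'
  have hspan2 : finrank K (Submodule.span K ({x, c} : Set V)) ≤ 2 := by
    classical
    refine (finrank_span_le_card _).trans ?_
    rw [Set.toFinset_insert, Set.toFinset_singleton]
    exact Finset.card_le_two
  rcases hR with h | h
  · have := Submodule.finrank_mono hrange
    rw [h, finrank_top] at this
    omega
  · have := Submodule.eq_of_le_of_finrank_le hrange (by omega)
    exact h (this ▸ Submodule.subset_span (by simp))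

/-- A scalar Schur complement occurs for at most one functional. -/
theorem scalar_unique (h3 : 3 ≤ finrank K V) (hA : Function.Injective A) {x : V}
    (hx0 : ∀ a : K, A x ≠ a • x) {φ ψ : V →ₗ[K] K} (hφ : φ x = 1 ∧ φ (A x) = 1)
    (hψ : ψ x = 1 ∧ ψ (A x) = 1) {l l' : K}
    (h : ∀ w, φ w = 0 → A w - φ (A w) • A x = l • w)
    (h' : ∀ w, ψ w = 0 → A w - ψ (A w) • A x = l' • w) : φ = ψ := by
  by_contra hne
  have hsp : ∀ w, φ w = 0 → A w - l • w ∈ Submodule.span K {A x} := fun w hw =>
    Submodule.mem_span_singleton.mpr ⟨φ (A w), by linear_combination (norm := module) -(h w hw)⟩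
  have hsp' : ∀ w, ψ w = 0 → A w - l' • w ∈ Submodule.span K {A x} := fun w hw =>
    Submodule.mem_span_singleton.mpr ⟨ψ (A w), by linear_combination (norm := module) -(h' w hw)⟩
  -- the two scalars agree
  have hll : l = l' := by
    by_contra hll
    have h1 := finrank_ker_functional hφ.1
    have h2 := finrank_ker_functional hψ.1
    have h4 := Submodule.finrank_sup_add_finrank_inf_eq (LinearMap.ker φ) (LinearMap.ker ψ)
    have h5 := Submodule.finrank_le (LinearMap.ker φ ⊔ LinearMap.ker ψ)
    obtain ⟨w, hw, hw0⟩ := (Submodule.ne_bot_iff (LinearMap.ker φ ⊓ LinearMap.ker ψ)).mp fun hb => by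
      rw [hb, finrank_bot] at h4
      omega
    have := sub_mem (hsp w hw.1) (hsp' w hw.2)
    rw [show A w - l • w - (A w - l' • w) = (l' - l) • w by module,
      Submodule.smul_mem_iff _ (sub_ne_zero.mpr (Ne.symm hll)), Submodule.mem_span_singleton] at this
    obtain ⟨a, ha⟩ := this
    have hw1 : φ w = 0 := hw.1
    rw [← ha, map_smul, hφ.2, smul_eq_mul, mul_one] at hw1
    exact hw0 (by rw [← ha, hw1, zero_smul])
  subst hll
  obtain ⟨w, hw, hwx⟩ : ∃ w, φ w = 0 ∧ ψ w ≠ 0 := by
    by_contra hall
    push Not at hall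
    refine hne (LinearMap.ext fun v => ?_)
    have := hall (v - φ v • x) (by simp [hφ.1])
    rw [map_sub, map_smul, hψ.1, smul_eq_mul, mul_one, sub_eq_zero] at this
    exact this.symm
  have hx' : ψ (x - (ψ w)⁻¹ • w) = 0 := by simp [hψ.1, inv_mul_cancel₀ hwx]
  have h6 := add_mem (hsp' _ hx') (Submodule.smul_mem _ (ψ w)⁻¹ (hsp w hw))
  rw [map_sub, map_smul, smul_sub (ψ w)⁻¹, show A x - (ψ w)⁻¹ • A w - l • (x - (ψ w)⁻¹ • w) +
    ((ψ w)⁻¹ • A w - (ψ w)⁻¹ • l • w) = A x - l • x by module, Submodule.mem_span_singleton] at h6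
  obtain ⟨a, ha⟩ := h6
  have h7 : (1 - a) • A x = l • x := by linear_combination (norm := module) -ha
  by_cases ha1 : a = 1
  · rw [ha1, sub_self, zero_smul, eq_comm, smul_eq_zero] at h7
    rcases h7 with hl | hxz
    · rw [hl] at h
      have h8 := h w hw
      rw [zero_smul, sub_eq_zero, ← map_smul] at h8
      have h9 : w = φ (A w) • x := hA h8
      have : φ w = φ (A w) := by conv_lhs => rw [h9, map_smul, hφ.1, smul_eq_mul, mul_one]
      rw [hw] at this
      rw [← this, zero_smul] at h9
      exact hwx (by rw [h9, map_zero])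
    · exact hx0 0 (by rw [hxz, map_zero, smul_zero])
  · exact hx0 ((1 - a)⁻¹ * l) (by
      rw [← smul_smul, ← h7, smul_smul, inv_mul_cancel₀ (sub_ne_zero.mpr (Ne.symm ha1)), one_smul])

omit [FiniteDimensional K V] in
theorem injective_of_det [FiniteDimensional K V] (hdet : LinearMap.det A = 1) : Function.Injective A :=
  ((Module.End.isUnit_iff A).mp ((LinearMap.isUnit_iff_isUnit_det A).mpr (by rw [hdet]; exact isUnit_one))).1

end Cfsg.Agent.KnownB.LU
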