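import Cfsg.Agent.KnownB.LU.Main
import Cfsg.Agent.Forms.Models
import Mathlib.LinearAlgebra.Matrix.GeneralLinearGroup.Defs
import Mathlib.LinearAlgebra.Matrix.SchurComplement
import Mathlib.LinearAlgebra.Matrix.Permutation

/-! Products of two regular unipotent matrices. -/

set_option autoImplicit false
set_option maxHeartbeats 1000000

namespace Cfsg.Agent.KnownB.LU

open Module Matrix

universe u

variable {K : Type u} [Field K]

/-- The regular unipotent Jordan block. -/
def jordan (K : Type u) [Field K] (m : ℕ) : Matrix (Fin m) (Fin m) K :=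
  Matrix.of fun i j => if i = j then 1 else if (j : ℕ) = i + 1 then 1 else 0

/-- A regular upper unitriangular matrix is similar to the Jordan block. -/
theorem ureg_similar {n : ℕ} {U : Matrix (Fin (n + 1)) (Fin (n + 1)) K} (hU : UReg U) :
    ∃ P : GL (Fin (n + 1)) K, U * (P : Matrix _ _ K) = (P : Matrix _ _ K) * jordan K (n + 1) := by
  obtain ⟨hd, hlow, hsup⟩ := hU
  set X : Matrix (Fin (n + 1)) (Fin (n + 1)) K := U - 1 with hX
  have hX0 : ∀ i j : Fin (n + 1), j ≤ i → X i j = 0 := fun i j hji => by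
    rcases eq_or_lt_of_le hji with rfl | hlt
    · simp [hX, hd]
    · simp [hX, hlow i j hlt, hlt.ne']
  have hX1 : ∀ i j : Fin (n + 1), (j : ℕ) = i + 1 → X i j ≠ 0 := fun i j h => by
    have hne : i ≠ j := fun e => by subst e; omega
    simpa [hX, hne] using hsup i j h
  let v : ℕ → Fin (n + 1) → K := fun k => (X ^ k) *ᵥ Pi.single (Fin.last n) 1
  have hv0 : v 0 = Pi.single (Fin.last n) 1 := by
    show (X ^ 0) *ᵥ Pi.single (Fin.last n) 1 = _
    rw [pow_zero, Matrix.one_mulVec]
  have hvs : ∀ k, v (k + 1) = X *ᵥ v k := fun k => by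
    show (X ^ (k + 1)) *ᵥ _ = X *ᵥ ((X ^ k) *ᵥ _)
    rw [pow_succ', ← Matrix.mulVec_mulVec]
  have hlead : ∀ k, (∀ i : Fin (n + 1), n < (i : ℕ) + k → v k i = 0) ∧
      ∀ i : Fin (n + 1), (i : ℕ) + k = n → v k i ≠ 0 := by
    intro k
    induction k with
    | zero =>
      refine ⟨fun i hi => absurd hi (by omega), fun i hi => ?_⟩
      rw [hv0, show i = Fin.last n from Fin.ext (by simpa using hi)]
      simp
    | succ k ih =>
      refine ⟨fun i hi => ?_, fun i hi => ?_⟩
      · rw [hvs, Matrix.mulVec, dotProduct]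
        refine Finset.sum_eq_zero fun j _ => ?_
        by_cases hj : j ≤ i
        · rw [hX0 i j hj, zero_mul]
        · rw [ih.1 j (by have : (i : ℕ) < j := not_le.mp hj; omega), mul_zero]
      · have hi' : (i : ℕ) + 1 < n + 1 := by omega
        rw [hvs, Matrix.mulVec, dotProduct, Finset.sum_eq_single ⟨i + 1, hi'⟩]
        · exact mul_ne_zero (hX1 i _ rfl) (ih.2 _ (by simp; omega))
        · intro j _ hj
          by_cases hji : j ≤ i
          · rw [hX0 i j hji, zero_mul]
          · have h1 : (i : ℕ) < j := not_le.mp hji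
            have h2 : (j : ℕ) ≠ i + 1 := fun h => hj (Fin.ext h)
            rw [ih.1 j (by omega), mul_zero]
        · simp
  let P : Matrix (Fin (n + 1)) (Fin (n + 1)) K := Matrix.of fun i j => v (n - j) i
  have hP : P.BlockTriangular id := fun i j hji => (hlead (n - j)).1 i (by
    have : (j : ℕ) < i := hji
    omega)
  have hPd : P.det ≠ 0 := by
    rw [Matrix.det_of_isUpperTriangular hP, Finset.prod_ne_zero_iff]
    exact fun i _ => (hlead (n - i)).2 i (by omega)
  refine ⟨GeneralLinearGroup.mkOfDetNeZero P hPd, ?_⟩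
  show U * P = P * jordan K (n + 1)
  rw [show U = 1 + X by simp [hX], Matrix.add_mul, Matrix.one_mul]
  ext i j
  have hXP : (X * P) i j = v (n - j + 1) i := by rw [hvs]; rfl
  rw [Matrix.add_apply, hXP, Matrix.mul_apply]
  induction j using Fin.cases with
  | zero =>
    rw [(hlead (n - ((0 : Fin (n + 1)) : ℕ) + 1)).1 i (by simp; omega), add_zero, Finset.sum_eq_single 0]
    · simp [jordan]
    · intro l _ hl
      have : ¬ ((0 : ℕ) = (l : ℕ) + 1) := by omega
      simp [jordan, hl]
    · simp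
  | succ j =>
    rw [Finset.sum_eq_add_of_mem j.succ j.castSucc (Finset.mem_univ _) (Finset.mem_univ _)
      (by simp [Fin.ext_iff])]
    · have hne : j.castSucc ≠ j.succ := by simp [Fin.ext_iff]
      have e : n - (j : ℕ) = n - ((j : ℕ) + 1) + 1 := by omega
      simp [jordan, hne, P, e]
    · intro l _ hl
      have h2 : ¬ ((j.succ : ℕ) = (l : ℕ) + 1) := fun h => hl.2 (Fin.ext (by simpa using h.symm))
      simp only [Fin.val_succ] at h2
      have h3 : ¬ (j : ℕ) = (l : ℕ) := fun h => hl.2 (Fin.ext (by simpa using h.symm))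
      simp [jordan, hl.1, h2, h3]

/-- A regular lower unitriangular matrix is similar to the Jordan block. -/
theorem lreg_similar {n : ℕ} {L : Matrix (Fin (n + 1)) (Fin (n + 1)) K} (hL : UReg L.transpose) :
    ∃ P : GL (Fin (n + 1)) K, L * (P : Matrix _ _ K) = (P : Matrix _ _ K) * jordan K (n + 1) := by
  obtain ⟨hd, hlow, hsup⟩ := hL
  set e : Fin (n + 1) ≃ Fin (n + 1) := Fin.revPerm
  have hU : UReg (L.submatrix e e) := by
    refine ⟨fun i => hd _, fun i j hij => hlow _ _ (Fin.rev_lt_rev.mpr hij), fun i j hij => hsup _ _ ?_⟩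
    simp only [e, Fin.revPerm_apply, Fin.val_rev]
    omega
  obtain ⟨P, hP⟩ := ureg_similar hU
  have hdet : ((P : Matrix _ _ K).submatrix e id).det ≠ 0 := by
    rw [Matrix.det_permute e (P : Matrix _ _ K)]
    exact mul_ne_zero ((Units.map (Int.castRingHom K).toMonoidHom (Equiv.Perm.sign e)).ne_zero)
      (Matrix.GeneralLinearGroup.det P).ne_zero
  refine ⟨GeneralLinearGroup.mkOfDetNeZero _ hdet, ?_⟩
  show L * (P : Matrix _ _ K).submatrix e id = (P : Matrix _ _ K).submatrix e id * jordan K (n + 1)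
  have hee : ∀ i, e (e i) = i := fun i => Fin.rev_rev i
  ext i j
  have h := congrFun (congrFun hP (e i)) j
  rw [Matrix.mul_apply, Matrix.mul_apply] at h
  rw [Matrix.mul_apply, Matrix.mul_apply]
  simp only [Matrix.submatrix_apply, id_eq] at h ⊢
  rw [← h, ← e.sum_comp fun l => L (e (e i)) (e l) * (P : Matrix _ _ K) l j]
  simp [hee]

/-- Every non-scalar matrix of determinant one is a product of two conjugates of the block. -/
theorem two_blocks (hK : 4 ≤ Cardinal.mk K) (n : ℕ) (hn : 3 ≤ n) (J g : GL (Fin n) K)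
    (hJ : ∀ i j : Fin n, (J : Matrix (Fin n) (Fin n) K) i j =
      if i = j then 1 else if j.val = i.val + 1 then 1 else 0)
    (hg : ¬ ∃ c : K, (g : Matrix (Fin n) (Fin n) K) = c • (1 : Matrix (Fin n) (Fin n) K))
    (hdet : (g : Matrix (Fin n) (Fin n) K).det = 1) :
    ∃ x y : GL (Fin n) K, g = (x * J * x⁻¹) * (y * J * y⁻¹) := by
  classical
  obtain ⟨m, rfl⟩ : ∃ m, n = m + 2 + 1 := ⟨n - 3, by omega⟩
  have hJ' : (J : Matrix (Fin (m + 2 + 1)) (Fin (m + 2 + 1)) K) = jordan K _ := by ext i j; rw [hJ]; rfl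
  -- two similar factors suffice
  suffices h : ∃ (Q L U : GL (Fin (m + 2 + 1)) K), g = Q * (L * U) * Q⁻¹ ∧
      (∃ P : GL (Fin (m + 2 + 1)) K, L * P = P * J) ∧ ∃ P : GL (Fin (m + 2 + 1)) K, U * P = P * J by
    obtain ⟨Q, L, U, rfl, ⟨P, hP⟩, ⟨P', hP'⟩⟩ := h
    refine ⟨Q * P, Q * P', ?_⟩
    rw [show L = P * J * P⁻¹ by rw [← hP, mul_inv_cancel_right],
      show U = P' * J * P'⁻¹ by rw [← hP', mul_inv_cancel_right]]
    group
  set A : (Fin (m + 2 + 1) → K) →ₗ[K] (Fin (m + 2 + 1) → K) := Matrix.toLin' (g : Matrix (Fin (m + 2 + 1)) (Fin (m + 2 + 1)) K) with hA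
  by_cases hrk : 2 ≤ finrank K (LinearMap.range (A - LinearMap.id))
  · obtain ⟨b, L, U, hLU, hL, hU, -, -⟩ := factor (large_three hK) (large_four hK) (m + 1)
      (Fin (m + 2 + 1) → K) A (by simp) (by rw [hA, LinearMap.det_toLin', hdet])
      (fun ⟨a, ha⟩ => hg ⟨a, Forms.matrix_ext_mulVec fun v => by
        rw [Matrix.smul_mulVec, Matrix.one_mulVec]
        simpa [hA] using ha v⟩)
      hrk (Pi.single 0 1) (LinearMap.proj 0) (fun h => by simpa using congrFun h 0)
      (fun h => by simpa using LinearMap.congr_fun h (Pi.single 0 1))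
    obtain ⟨PL, hPL⟩ := lreg_similar hL
    obtain ⟨PU, hPU⟩ := ureg_similar hU
    have hdetLU : L.det ≠ 0 ∧ U.det ≠ 0 := by
      have h := congrArg Matrix.det hLU
      rw [LinearMap.det_toMatrix, hA, LinearMap.det_toLin', hdet, Matrix.det_mul] at h
      constructor <;> intro h0 <;> simp [h0] at h
    let Q : Matrix (Fin (m + 2 + 1)) (Fin (m + 2 + 1)) K := (Pi.basisFun K _).toMatrix b
    haveI : Invertible Q := (Pi.basisFun K _).invertibleToMatrix b
    refine ⟨unitOfInvertible Q, GeneralLinearGroup.mkOfDetNeZero L hdetLU.1,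
      GeneralLinearGroup.mkOfDetNeZero U hdetLU.2, ?_,
      ⟨PL, Units.ext (by rw [Units.val_mul, Units.val_mul, hJ']; exact hPL)⟩,
      ⟨PU, Units.ext (by rw [Units.val_mul, Units.val_mul, hJ']; exact hPU)⟩⟩
    rw [eq_mul_inv_iff_mul_eq]
    refine Units.ext ?_
    show (g : Matrix (Fin (m + 2 + 1)) (Fin (m + 2 + 1)) K) * Q = Q * (L * U)
    rw [← hLU, basis_toMatrix_mul_linearMap_toMatrix,
      ← linearMap_toMatrix_mul_basis_toMatrix (b' := Pi.basisFun K _) (b := b),
      LinearMap.toMatrix_eq_toMatrix', hA, LinearMap.toMatrix'_toLin']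
  · -- a transvection
    set M : Matrix (Fin (m + 2 + 1)) (Fin (m + 2 + 1)) K := (g : Matrix (Fin (m + 2 + 1)) (Fin (m + 2 + 1)) K) - 1 with hMdef
    have hM0 : M ≠ 0 := fun h => hg ⟨1, by rw [one_smul]; exact sub_eq_zero.mp h⟩
    obtain ⟨i0, j0, hij⟩ : ∃ i j, M i j ≠ 0 := by
      by_contra hall
      push Not at hall
      exact hM0 (Matrix.ext hall)
    set a : Fin (m + 2 + 1) → K := M *ᵥ Pi.single j0 1 with ha
    have haM : ∀ i, a i = M i j0 := fun i => by simp [ha]
    have hApp : ∀ v, (A - LinearMap.id : (Fin (m + 2 + 1) → K) →ₗ[K] _) v = M *ᵥ v := fun v => by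
      simp [hA, hMdef, Matrix.sub_mulVec]
    have hmul : ∀ v, ∃ s : K, M *ᵥ v = s • a := fun v => by
      have ha0 : a ≠ 0 := fun h => hij (by rw [← haM, h]; rfl)
      have hle : Submodule.span K {a} ≤ LinearMap.range (A - LinearMap.id : (Fin (m + 2 + 1) → K) →ₗ[K] _) :=
        (Submodule.span_singleton_le_iff_mem _ _).mpr ⟨Pi.single j0 1, hApp _⟩
      have heq := Submodule.eq_of_le_of_finrank_le hle (by rw [finrank_span_singleton ha0]; omega)
      have : M *ᵥ v ∈ Submodule.span K {a} := heq ▸ ⟨v, hApp v⟩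
      obtain ⟨s, hs⟩ := Submodule.mem_span_singleton.mp this
      exact ⟨s, hs.symm⟩
    set f : Fin (m + 2 + 1) → K := fun j => M i0 j / M i0 j0 with hf
    have hMf : ∀ i j, M i j = a i * f j := fun i j => by
      obtain ⟨s, hs⟩ := hmul (Pi.single j 1)
      have h1 := congrFun hs i
      have h2 := congrFun hs i0
      simp [haM] at h1 h2
      rw [h1, hf, haM]
      show s * M i j0 = M i j0 * (M i0 j / M i0 j0)
      rw [h2]
      field_simp
    have hMv : M = Matrix.vecMulVec a f := Matrix.ext hMf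
    have hfa : f ⬝ᵥ a = 0 := by
      have h := hdet
      rw [show (g : Matrix (Fin (m + 2 + 1)) (Fin (m + 2 + 1)) K) = 1 + M by simp [hMdef], hMv, Matrix.vecMulVec_eq Unit,
        Matrix.det_one_add_replicateCol_mul_replicateRow] at h
      linear_combination h
    have hf0 : f ≠ 0 := fun h => hM0 (by ext i j; rw [hMf, h]; simp)
    have ha0 : a ≠ 0 := fun h => hij (by rw [← haM, h]; rfl)
    -- a basis `a, …` adapted to the transvection
    let φ : (Fin (m + 2 + 1) → K) →ₗ[K] K :=
      { toFun := fun v => f ⬝ᵥ v, map_add' := dotProduct_add f, map_smul' := fun c v => by simp }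
    obtain ⟨j1, hj1⟩ : ∃ j, f j ≠ 0 := by
      by_contra hall; push Not at hall; exact hf0 (funext hall)
    set z : Fin (m + 2 + 1) → K := Pi.single j1 (f j1)⁻¹ with hz
    have hφz : φ z = 1 := by simp [φ, hz, mul_inv_cancel₀ hj1]
    have hW : finrank K (LinearMap.ker φ) = m + 2 := by
      have := finrank_ker_functional hφz
      rw [Module.finrank_fintype_fun_eq_card, Fintype.card_fin] at this
      omega
    let aW : LinearMap.ker φ := ⟨a, hfa⟩
    have haW : aW ≠ 0 := fun h => ha0 (congrArg Subtype.val h)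
    obtain ⟨bW, hbW⟩ : ∃ bW : Basis (Fin (m + 2)) K (LinearMap.ker φ), bW 0 = aW := by
      have hs : LinearIndepOn K id ({aW} : Set (LinearMap.ker φ)) := (linearIndepOn_singleton_iff (R := K)).mpr haW
      let B := Basis.extend hs
      haveI : Fintype (hs.extend (Set.subset_univ ({aW} : Set (LinearMap.ker φ)))) :=
        FiniteDimensional.fintypeBasisIndex B
      have hc := Module.finrank_eq_card_basis B
      rw [hW] at hc
      let e := Fintype.equivFinOfCardEq hc.symm
      let a' : hs.extend (Set.subset_univ ({aW} : Set (LinearMap.ker φ))) :=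
        ⟨aW, hs.subset_extend _ rfl⟩
      refine ⟨B.reindex (e.trans (Equiv.swap (e a') 0)), ?_⟩
      rw [Basis.reindex_apply, show (e.trans (Equiv.swap (e a') 0)).symm 0 = a' by simp]
      exact Basis.extend_apply_self hs a'
    let b0 := consBasis z φ hφz bW
    -- order it so that `a` is first and `z` third
    let π : Equiv.Perm (Fin (m + 2 + 1)) :=
      (Equiv.swap (0 : Fin (m + 2 + 1)) ⟨1, by omega⟩).trans
        (Equiv.swap ⟨1, by omega⟩ ⟨2, by omega⟩)
    let b := b0.reindex π
    let Q : Matrix (Fin (m + 2 + 1)) (Fin (m + 2 + 1)) K := (Pi.basisFun K _).toMatrix b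
    haveI : Invertible Q := (Pi.basisFun K _).invertibleToMatrix b
    let o : Fin (m + 2 + 1) := 0
    let t2 : Fin (m + 2 + 1) := ⟨2, by omega⟩
    let E : Matrix (Fin (m + 2 + 1)) (Fin (m + 2 + 1)) K := Matrix.single o t2 1
    have hπ0 : π.symm t2 = 0 := by
      rw [Equiv.symm_apply_eq]
      simp only [π, t2, Equiv.trans_apply, Equiv.swap_apply_left]
    have hπ1 : π.symm o = Fin.succ 0 := by
      rw [Equiv.symm_apply_eq]
      have h1 : (Fin.succ 0 : Fin (m + 2 + 1)) = ⟨1, by omega⟩ := rfl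
      simp only [π, o, Equiv.trans_apply, h1, Equiv.swap_apply_right]
      rw [Equiv.swap_apply_of_ne_of_ne] <;> simp [Fin.ext_iff]
    have hb2 : b t2 = z := by rw [Basis.reindex_apply, hπ0]; exact consBasis_zero ..
    have hb0 : b o = a := by
      rw [Basis.reindex_apply, hπ1]
      exact (consBasis_succ ..).trans (congrArg Subtype.val hbW)
    have hbr : ∀ j, j ≠ t2 → φ (b j) = 0 := fun j hj => by
      rw [Basis.reindex_apply]
      have hne : π.symm j ≠ 0 := fun h => hj (by rw [← hπ0] at h; exact π.symm.injective h)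
      obtain ⟨k, hk⟩ := Fin.exists_succ_eq.mpr hne
      rw [← hk, consBasis_succ]
      exact LinearMap.mem_ker.mp (bW k).2
    have hQE : (g : Matrix (Fin (m + 2 + 1)) (Fin (m + 2 + 1)) K) * Q = Q * (1 + E) := by
      ext i j
      have e1 : ((g : Matrix (Fin (m + 2 + 1)) (Fin (m + 2 + 1)) K) * Q) i j = b j i + φ (b j) * a i := by
        have : ((g : Matrix (Fin (m + 2 + 1)) (Fin (m + 2 + 1)) K) *ᵥ b j) = b j + φ (b j) • a := by
          rw [show (g : Matrix (Fin (m + 2 + 1)) (Fin (m + 2 + 1)) K) = 1 + M by simp [hMdef], Matrix.add_mulVec, Matrix.one_mulVec,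
            hMv, Matrix.vecMulVec_mulVec]
          ext i; simp [φ, mul_comm]
        rw [Matrix.mul_apply]
        simpa [Q, Basis.toMatrix_apply, Matrix.mulVec, dotProduct] using congrFun this i
      rw [e1, Matrix.mul_add, Matrix.mul_one, Matrix.add_apply]
      by_cases hj : j = t2
      · subst hj
        simp [E, Q, Basis.toMatrix_apply, hb2, hφz, hb0, Matrix.mul_single_apply_same]
      · simp [E, Q, Basis.toMatrix_apply, hbr j hj, Matrix.mul_single_apply_of_ne _ _ _ _ _ hj]
    have hJi : ∀ i j : Fin (m + 2 + 1),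
        ((J⁻¹ : GL (Fin (m + 2 + 1)) K) : Matrix (Fin (m + 2 + 1)) (Fin (m + 2 + 1)) K) i j = if i ≤ j then (-1) ^ ((j : ℕ) - i) else 0 := by
      intro i j
      have hprod : (J : Matrix (Fin (m + 2 + 1)) (Fin (m + 2 + 1)) K) * Matrix.of (fun i j : Fin (m + 2 + 1) =>
          if i ≤ j then (-1 : K) ^ ((j : ℕ) - i) else 0) = 1 := by
        ext i j
        rw [Matrix.mul_apply, hJ']
        by_cases hlast : (i : ℕ) + 1 < m + 2 + 1
        · rw [Finset.sum_eq_add_of_mem i ⟨i + 1, hlast⟩ (Finset.mem_univ _) (Finset.mem_univ _)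
            (by simp [Fin.ext_iff])]
          · simp only [jordan, Matrix.of_apply, Fin.ext_iff, Fin.le_def, Matrix.one_apply, if_true,
              show ¬ (i : ℕ) = i + 1 by omega, if_false, one_mul]
            rcases lt_trichotomy (i : ℕ) j with h | h | h
            · rw [if_pos h.le, if_pos (by omega), if_neg h.ne,
                show (j : ℕ) - i = (j - ((i : ℕ) + 1)) + 1 by omega, pow_succ]
              ring
            · simp [h]
            · rw [if_neg (by omega), if_neg (by omega), if_neg h.ne', add_zero]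
          · intro l _ hl
            have h1 : ¬ (l : ℕ) = i + 1 := fun h => hl.2 (Fin.ext h)
            simp [jordan, Ne.symm hl.1, h1]
        · rw [Finset.sum_eq_single i]
          · have := j.2
            have := i.2
            simp only [jordan, Matrix.of_apply, Fin.ext_iff, Fin.le_def, Matrix.one_apply, if_true, one_mul]
            by_cases h : (i : ℕ) = j
            · simp [h]
            · rw [if_neg h, if_neg (by omega)]
          · intro l _ hl
            have h1 : ¬ (l : ℕ) = i + 1 := by have := l.2; omega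
            simp [jordan, Ne.symm hl, h1]
          · simp
      have hJinv : ((J⁻¹ : GL (Fin (m + 2 + 1)) K) : Matrix (Fin (m + 2 + 1)) (Fin (m + 2 + 1)) K) = Matrix.of (fun i j : Fin (m + 2 + 1) =>
          if i ≤ j then (-1 : K) ^ ((j : ℕ) - i) else 0) := by
        calc ((J⁻¹ : GL (Fin (m + 2 + 1)) K) : Matrix (Fin (m + 2 + 1)) (Fin (m + 2 + 1)) K)
            = ((J⁻¹ : GL (Fin (m + 2 + 1)) K) : Matrix (Fin (m + 2 + 1)) (Fin (m + 2 + 1)) K) * ((J : Matrix (Fin (m + 2 + 1)) (Fin (m + 2 + 1)) K) * _) := by rw [hprod, Matrix.mul_one]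
          _ = _ := by rw [← Matrix.mul_assoc, Units.inv_mul, Matrix.one_mul]
      rw [hJinv]
      rfl
    have hUreg : UReg ((((J⁻¹ : GL (Fin (m + 2 + 1)) K) : Matrix (Fin (m + 2 + 1)) (Fin (m + 2 + 1)) K)) * (1 + E)) := by
      have hent : ∀ i j : Fin (m + 2 + 1), ((((J⁻¹ : GL (Fin (m + 2 + 1)) K) : Matrix (Fin (m + 2 + 1)) (Fin (m + 2 + 1)) K)) * (1 + E)) i j =
          ((J⁻¹ : GL (Fin (m + 2 + 1)) K) : Matrix (Fin (m + 2 + 1)) (Fin (m + 2 + 1)) K) i j +
            if j = t2 then ((J⁻¹ : GL (Fin (m + 2 + 1)) K) : Matrix (Fin (m + 2 + 1)) (Fin (m + 2 + 1)) K) i o else 0 := fun i j => by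
        rw [Matrix.mul_add, Matrix.mul_one, Matrix.add_apply]
        by_cases hj : j = t2
        · subst hj; simp [E, Matrix.mul_single_apply_same]
        · simp [E, hj, Matrix.mul_single_apply_of_ne _ _ _ _ _ hj]
      refine ⟨fun i => ?_, fun i j hij => ?_, fun i j hij => ?_⟩
      · rw [hent, hJi, hJi, if_pos le_rfl, Nat.sub_self, pow_zero]
        split_ifs with h1 h2
        · subst h1; simp [t2, o, Fin.le_def] at h2
        all_goals ring
      · rw [hent, hJi, hJi, if_neg hij.not_ge]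
        split_ifs with h1 h2
        · subst h1
          have : (i : ℕ) ≤ 0 := h2
          have : (2 : ℕ) < i := hij
          omega
        all_goals ring
      · rw [hent, hJi, hJi, if_pos (show i ≤ j by rw [Fin.le_def]; omega),
          show (j : ℕ) - i = 1 by omega, pow_one]
        split_ifs with h1 h2
        · subst h1
          have h3 : (i : ℕ) ≤ 0 := h2
          have h4 : (2 : ℕ) = i + 1 := hij
          omega
        all_goals simp
    obtain ⟨PU, hPU⟩ := ureg_similar hUreg
    have hdU : ((((J⁻¹ : GL (Fin (m + 2 + 1)) K) : Matrix (Fin (m + 2 + 1)) (Fin (m + 2 + 1)) K)) * (1 + E)).det ≠ 0 := by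
      have hu : ∀ i, ((((J⁻¹ : GL (Fin (m + 2 + 1)) K) : Matrix (Fin (m + 2 + 1)) (Fin (m + 2 + 1)) K)) * (1 + E)) i i = 1 := hUreg.1
      rw [Matrix.det_of_isUpperTriangular (fun i j h => hUreg.2.1 i j h), Finset.prod_congr rfl
        fun i _ => hu i, Finset.prod_const_one]
      exact one_ne_zero
    refine ⟨unitOfInvertible Q, J, GeneralLinearGroup.mkOfDetNeZero _ hdU, ?_, ⟨1, by simp⟩,
      ⟨PU, Units.ext (by rw [Units.val_mul, Units.val_mul, hJ']; exact hPU)⟩⟩
    rw [eq_mul_inv_iff_mul_eq]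
    refine Units.ext ?_
    show (g : Matrix (Fin (m + 2 + 1)) (Fin (m + 2 + 1)) K) * Q = Q * ((J : Matrix (Fin (m + 2 + 1)) (Fin (m + 2 + 1)) K) * (((J⁻¹ : GL (Fin (m + 2 + 1)) K) : Matrix (Fin (m + 2 + 1)) (Fin (m + 2 + 1)) K) * (1 + E)))
    rw [← Matrix.mul_assoc (J : Matrix (Fin (m + 2 + 1)) (Fin (m + 2 + 1)) K), Units.mul_inv, Matrix.one_mul, hQE]

end Cfsg.Agent.KnownB.LU
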