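import Cfsg.Agent.KnownB.LU.Factor
import Mathlib.LinearAlgebra.Matrix.NonsingularInverse

/-! The induction for the factorisation. -/

set_option autoImplicit false
set_option maxHeartbeats 1000000

namespace Cfsg.Agent.KnownB.LU

open Module Matrix

universe u v

variable {K : Type u} [Field K]

theorem x_not_mem_line {V : Type v} [AddCommGroup V] [Module K V] (A : V →ₗ[K] V) {x : V}
    (hxe : ∀ a : K, A x ≠ a • x) : x ∉ Submodule.span K {A x - x} := fun h => by
  obtain ⟨a, ha⟩ := Submodule.mem_span_singleton.mp h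
  rw [smul_sub] at ha
  by_cases ha0 : a = 0
  · rw [ha0, zero_smul, zero_smul, sub_self] at ha
    exact hxe 1 (by rw [← ha, map_zero, smul_zero])
  · refine hxe (a⁻¹ * (1 + a)) ?_
    have h1 : (1 + a) • x = a • A x := by linear_combination (norm := module) -ha
    rw [← smul_smul, h1, smul_smul, inv_mul_cancel₀ ha0, one_smul]

theorem good_two {V : Type v} [AddCommGroup V] [Module K V] [FiniteDimensional K V] (A : V →ₗ[K] V)
    (hK : Large K 3) (hd : finrank K V = 2) (hdet : LinearMap.det A = 1)
    (hns : ¬ ∃ a : K, ∀ v, A v = a • v)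
    (hrk : 2 ≤ finrank K (LinearMap.range (A - LinearMap.id : V →ₗ[K] V)))
    {c₀ : V} {r₀ : V →ₗ[K] K} (hc₀ : c₀ ≠ 0) (hr₀ : r₀ ≠ 0) : Good A 1 c₀ r₀ := by
  obtain ⟨x, hrx, hxS, -, hxe⟩ := choose_vec A hK hns hrk (c₀ := c₀) hr₀
  set c := A x - x with hc
  have hc0 : c ≠ 0 := fun h => hxe 1 (by rw [one_smul]; exact sub_eq_zero.mp h)
  have hxc : x ∉ Submodule.span K {c} := x_not_mem_line A hxe
  obtain ⟨φ, hx, hφc, -⟩ := exists_functional hxc hxc
  have hAx : φ (A x) = 1 := by
    have : φ (A x - x) = 0 := hφc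
    rwa [map_sub, hx, sub_eq_zero] at this
  have hW : finrank K (LinearMap.ker φ) = 1 := by have := finrank_ker_functional hx; omega
  let cw : LinearMap.ker φ := ⟨c, LinearMap.mem_ker.mpr hφc⟩
  have hcw : cw ≠ 0 := fun h => hc0 (congrArg Subtype.val h)
  have hline : LinearMap.ker φ = Submodule.span K {c} :=
    (Submodule.eq_of_le_of_finrank_le ((Submodule.span_singleton_le_iff_mem _ _).mpr cw.2)
      (by rw [hW, finrank_span_singleton hc0])).symm
  refine good_step A x φ hx hAx (fun h => ?_) hrx ?_
  · have : c₀ ∈ Submodule.span K {c} := hline ▸ LinearMap.mem_ker.mpr h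
    obtain ⟨a, ha⟩ := Submodule.mem_span_singleton.mp this
    exact hxS (Submodule.mem_span_singleton.mpr ⟨a⁻¹, by
      rw [← ha, smul_smul, inv_mul_cancel₀ (fun h0 => hc₀ (by rw [← ha, h0, zero_smul])), one_smul]⟩)
  let b := (Module.finBasisOfFinrankEq K (LinearMap.ker φ) hW : Basis (Fin 1) K _)
  have hd' : LinearMap.toMatrix b b (schur A x φ hAx) = 1 := by
    have h := det_schur A x φ hx hAx b
    rw [hdet, ← LinearMap.det_toMatrix b, Matrix.det_fin_one] at h
    ext i j
    fin_cases i; fin_cases j
    simpa using h.symm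
  have hfix : schur A x φ hAx = LinearMap.id :=
    (LinearMap.toMatrix b b).injective (by rw [hd', LinearMap.toMatrix_id])
  refine ⟨b, 1, 1, by rw [hd', Matrix.mul_one], ?_, ?_, fun h => ?_, fun h => ?_⟩
  · rw [Matrix.transpose_one]
    exact ⟨fun i => Matrix.one_apply_eq i, fun i j h => Matrix.one_apply_ne h.ne',
      fun i j h => by omega⟩
  · exact ⟨fun i => Matrix.one_apply_eq i, fun i j h => Matrix.one_apply_ne h.ne',
      fun i j h => by omega⟩
  · refine hcw (b.repr.injective (Finsupp.ext fun i => ?_))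
    fin_cases i
    simpa using h
  · -- a fixed vector of `A`
    have e := congrArg Subtype.val (LinearMap.congr_fun hfix (b 0))
    rw [schur_apply, show φ (A (b 0 : V)) = 0 from h, zero_smul, sub_zero, LinearMap.id_apply] at e
    have hM : LinearMap.range (A - LinearMap.id : V →ₗ[K] V) = ⊤ :=
      Submodule.eq_top_of_finrank_eq (le_antisymm (Submodule.finrank_le _) (hd ▸ hrk))
    have hinj := LinearMap.injective_iff_surjective.mpr (LinearMap.range_eq_top.mp hM)
    have h0 : ((b 0 : LinearMap.ker φ) : V) = 0 := hinj (by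
      rw [LinearMap.sub_apply, LinearMap.id_apply, e, sub_self, map_zero])
    exact b.ne_zero 0 (Subtype.ext h0)

theorem factor (hK : Large K 3) (hK4 : (2 : K) ≠ 0 → Large K 4) :
    ∀ (n : ℕ) (V : Type v) [AddCommGroup V] [Module K V] [FiniteDimensional K V] (A : V →ₗ[K] V),
      finrank K V = n + 2 → LinearMap.det A = 1 → (¬ ∃ a : K, ∀ v, A v = a • v) →
      2 ≤ finrank K (LinearMap.range (A - LinearMap.id : V →ₗ[K] V)) →
      ∀ (c₀ : V) (r₀ : V →ₗ[K] K), c₀ ≠ 0 → r₀ ≠ 0 → Good A (n + 1) c₀ r₀ := by
  intro n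
  induction n with
  | zero => exact fun V _ _ _ A hd hdet hns hrk c₀ r₀ hc₀ hr₀ => good_two A hK hd hdet hns hrk hc₀ hr₀
  | succ n ih =>
    intro V _ _ _ A hd hdet hns hrk c₀ r₀ hc₀ hr₀
    classical
    set M : V →ₗ[K] V := A - LinearMap.id with hM
    obtain ⟨x, hrx, hxS, hR, hxe⟩ := choose_vec A hK hns hrk (c₀ := c₀) hr₀
    set c := A x - x with hc
    have hc0 : c ≠ 0 := fun h => hxe 1 (by rw [one_smul]; exact sub_eq_zero.mp h)
    have hxc : x ∉ Submodule.span K {c} := x_not_mem_line A hxe
    have hc₀c : c₀ ∉ Submodule.span K {c} := fun h => by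
      obtain ⟨a, ha⟩ := Submodule.mem_span_singleton.mp h
      exact hxS (Submodule.mem_span_singleton.mpr ⟨a⁻¹, by
        rw [← ha, smul_smul, inv_mul_cancel₀ (fun h0 => hc₀ (by rw [← ha, h0, zero_smul])), one_smul]⟩)
    set N := (Submodule.span K {A x}).comap M with hN
    have hAx0 : A x ≠ 0 := fun h => hxe 0 (by rw [h, zero_smul])
    have hinjA := injective_of_det A hdet
    -- the dimension of `N`
    have hN1 : finrank K N + 2 ≤ finrank K V ∧ (0 < finrank K N ∨ finrank K V ≠ 3) := by
      rcases hR with hR | hR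
      · have hsurj := LinearMap.range_eq_top.mp hR
        have hinj : Function.Injective M := LinearMap.injective_iff_surjective.mpr hsurj
        obtain ⟨w, hw⟩ := hsurj (A x)
        have hNe : N = Submodule.span K {w} := by
          refine le_antisymm (fun v hv => ?_) ((Submodule.span_singleton_le_iff_mem _ _).mpr ?_)
          · obtain ⟨a, ha⟩ := Submodule.mem_span_singleton.mp hv
            exact Submodule.mem_span_singleton.mpr ⟨a, hinj (by rw [map_smul, hw, ha])⟩
          · show M w ∈ Submodule.span K {A x}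
            rw [hw]; exact Submodule.mem_span_singleton_self _
        have hw0 : w ≠ 0 := fun h => hAx0 (by rw [← hw, h, map_zero])
        rw [hNe, finrank_span_singleton hw0]
        exact ⟨by omega, Or.inl one_pos⟩
      · have hNe : N = LinearMap.ker M := by
          refine le_antisymm (fun v hv => ?_) (fun v hv => ?_)
          · obtain ⟨a, ha⟩ := Submodule.mem_span_singleton.mp hv
            refine LinearMap.mem_ker.mpr ?_
            by_contra hne
            have ha0 : a ≠ 0 := fun h => hne (by rw [← ha, h, zero_smul])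
            refine hR ⟨a⁻¹ • v - x, ?_⟩
            rw [map_sub, map_smul, ← ha, smul_smul, inv_mul_cancel₀ ha0, one_smul]
            show A x - (A x - x) = x
            abel
          · show M v ∈ Submodule.span K {A x}
            rw [LinearMap.mem_ker.mp hv]
            exact zero_mem _
        have h := LinearMap.finrank_range_add_finrank_ker M
        have hlt : finrank K (LinearMap.range M) < finrank K V :=
          Submodule.finrank_lt fun htop => hR (by rw [htop]; exact Submodule.mem_top)
        rw [hNe]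
        exact ⟨by omega, Or.inl (by omega)⟩
    -- the conditions on the functional
    let S : (V →ₗ[K] K) → Prop := fun φ => φ x = 1 ∧ φ (A x) = 1
    have hS : ∀ φ ψ, S φ → S ψ → ∀ s : K, S (φ + s • (ψ - φ)) := fun φ ψ hφ hψ s => by
      simp [S, hφ.1, hφ.2, hψ.1, hψ.2]
    have hmk : ∀ v, v ∉ Submodule.span K {c} → ∃ φ, S φ ∧ φ v ≠ 0 := fun v hv => by
      obtain ⟨φ, h1, h2, h3⟩ := exists_functional hxc hv
      have : φ (A x - x) = 0 := h2
      rw [map_sub, h1, sub_eq_zero] at this
      exact ⟨φ, ⟨h1, this⟩, h3⟩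
    let B₁ : (V →ₗ[K] K) → Prop := (· ∈ (Submodule.span K {c₀}).dualAnnihilator)
    let B₂ : (V →ₗ[K] K) → Prop := (· ∈ (LinearMap.range M).dualAnnihilator)
    let B₃ : (V →ₗ[K] K) → Prop := (· ∈ N.dualAnnihilator)
    let B₄ : (V →ₗ[K] K) → Prop := fun φ => S φ → ∃ l : K, ∀ w, φ w = 0 → A w - φ (A w) • A x = l • w
    have hgood₁ : ∃ φ, S φ ∧ ¬ B₁ φ := (hmk c₀ hc₀c).imp fun φ h =>
      ⟨h.1, fun hb => h.2 ((Submodule.mem_dualAnnihilator _).mp hb _
        (Submodule.mem_span_singleton_self c₀))⟩
    have hgood₂ : ∃ φ, S φ ∧ ¬ B₂ φ := by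
      obtain ⟨v, hv, hvc⟩ : ∃ v ∈ LinearMap.range M, v ∉ Submodule.span K {c} := by
        by_contra hall
        push Not at hall
        have h := Submodule.finrank_mono (show LinearMap.range M ≤ Submodule.span K {c} from hall)
        rw [finrank_span_singleton hc0] at h
        omega
      exact (hmk v hvc).imp fun φ h => ⟨h.1, fun hb => h.2 ((Submodule.mem_dualAnnihilator _).mp hb v hv)⟩
    have hgood₃ : finrank K V ≤ finrank K N + 2 → ∃ φ, S φ ∧ ¬ B₃ φ := fun hbig => by
      obtain ⟨v, hv, hvc⟩ : ∃ v ∈ N, v ∉ Submodule.span K {c} := by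
        by_contra hall
        push Not at hall
        have hle : N ≤ Submodule.span K {c} := hall
        rcases Nat.lt_or_ge (finrank K V) 4 with h3 | h4
        · exact not_le_line A (by omega) hdet hrk hxc hc0 hR (by
            rcases hN1.2 with h | h
            · exact h
            · omega) hle
        · have h := Submodule.finrank_mono hle
          rw [finrank_span_singleton hc0] at h
          omega
      exact (hmk v hvc).imp fun φ h => ⟨h.1, fun hb => h.2 ((Submodule.mem_dualAnnihilator _).mp hb v hv)⟩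
    have hline₄ : LineClosed (K := K) S B₄ := by
      intro φ ψ s t hφ hψ hs ht hst
      obtain ⟨l, hl⟩ := hs (hS φ ψ hφ hψ s)
      obtain ⟨l', hl'⟩ := ht (hS φ ψ hφ hψ t)
      have he := scalar_unique A (by omega) hinjA hxe (hS φ ψ hφ hψ s) (hS φ ψ hφ hψ t) hl hl'
      have h0 : (s - t) • (ψ - φ) = 0 := by
        linear_combination (norm := module) he
      have hψφ : ψ = φ := sub_eq_zero.mp ((smul_eq_zero.mp h0).resolve_left (sub_ne_zero.mpr hst))
      subst hψφ
      rw [sub_self, smul_zero, add_zero] at hl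
      exact ⟨fun _ => ⟨l, hl⟩, fun _ => ⟨l, hl⟩⟩
    have hgood₄ : ∃ φ, S φ ∧ ¬ B₄ φ := by
      by_contra hall
      push Not at hall
      obtain ⟨φ, hφ, -⟩ := hgood₁
      obtain ⟨v, hv⟩ : ∃ v, v ∉ Submodule.span K ({x, c} : Set V) := by
        refine exists_outside fun h => ?_
        have h1 := finrank_span_le_card (R := K) ({x, c} : Set V)
        rw [h, finrank_top, Set.toFinset_insert, Set.toFinset_singleton] at h1
        have := h1.trans (Finset.card_le_two : ({x, c} : Finset V).card ≤ 2)
        omega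
      obtain ⟨g, hg, hgxc⟩ := Submodule.exists_dual_map_eq_bot_of_notMem hv inferInstance
      have hg0 : ∀ w ∈ ({x, c} : Set V), g w = 0 := fun w hw => by
        have := Submodule.mem_map_of_mem (f := g) (Submodule.subset_span hw)
        rwa [hgxc, Submodule.mem_bot] at this
      have hgAx : g (A x) = 0 := by
        have h1 : g (A x - x) = 0 := hg0 c (by simp)
        rwa [map_sub, hg0 x (by simp), sub_zero] at h1
      have hψ : S (φ + g) := ⟨by simp [hφ.1, hg0 x], by simp [hφ.2, hgAx]⟩
      obtain ⟨l, hl⟩ := hall φ hφ hφ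
      obtain ⟨l', hl'⟩ := hall _ hψ hψ
      have he := scalar_unique A (by omega) hinjA hxe hφ hψ hl hl'
      exact hg (by rw [show g = 0 by rwa [left_eq_add] at he]; rfl)
    -- the choice of the functional
    obtain ⟨φ, ⟨hx, hAx⟩, hφ₁, hφ₂, hφ₃, hφ₄⟩ : ∃ φ, S φ ∧ ¬ B₁ φ ∧ ¬ B₂ φ ∧
        (finrank K V ≤ finrank K N + 2 → ¬ B₃ φ) ∧
        ((finrank K V ≤ finrank K N + 2 → n = 0 ∧ (2 : K) ≠ 0) → ¬ B₄ φ) := by
      have lc₁ := lineClosed_submodule (K := K) S (Submodule.span K {c₀}).dualAnnihilator
      have lc₂ := lineClosed_submodule (K := K) S (LinearMap.range M).dualAnnihilator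
      have lc₃ := lineClosed_submodule (K := K) S N.dualAnnihilator
      have hne : ∃ φ, S φ := hgood₁.imp fun _ h => h.1
      by_cases hbig : finrank K V ≤ finrank K N + 2
      · by_cases h4 : n = 0 ∧ (2 : K) ≠ 0
        · obtain ⟨φ, hφ, hb⟩ := avoid (hK4 h4.2) S hne hS [B₁, B₂, B₃, B₄] (by simp)
            (by simp only [List.forall_mem_cons]; exact ⟨lc₁, lc₂, lc₃, hline₄, by simp⟩)
            (by simp only [List.forall_mem_cons]; exact ⟨hgood₁, hgood₂, hgood₃ hbig, hgood₄, by simp⟩)
          simp only [List.forall_mem_cons] at hb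
          exact ⟨φ, hφ, hb.1, hb.2.1, fun _ => hb.2.2.1, fun _ => hb.2.2.2.1⟩
        · obtain ⟨φ, hφ, hb⟩ := avoid hK S hne hS [B₁, B₂, B₃] (by simp)
            (by simp only [List.forall_mem_cons]; exact ⟨lc₁, lc₂, lc₃, by simp⟩)
            (by simp only [List.forall_mem_cons]; exact ⟨hgood₁, hgood₂, hgood₃ hbig, by simp⟩)
          simp only [List.forall_mem_cons] at hb
          exact ⟨φ, hφ, hb.1, hb.2.1, fun _ => hb.2.2.1, fun h => absurd (h hbig) h4⟩
      · obtain ⟨φ, hφ, hb⟩ := avoid hK S hne hS [B₁, B₂, B₄] (by simp)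
          (by simp only [List.forall_mem_cons]; exact ⟨lc₁, lc₂, hline₄, by simp⟩)
          (by simp only [List.forall_mem_cons]; exact ⟨hgood₁, hgood₂, hgood₄, by simp⟩)
        simp only [List.forall_mem_cons] at hb
        exact ⟨φ, hφ, hb.1, hb.2.1, fun h => absurd h hbig, fun _ => hb.2.2.1⟩
    have hc₀φ : φ c₀ ≠ 0 := fun h => hφ₁ ((Submodule.mem_dualAnnihilator _).mpr fun w hw => by
      obtain ⟨a, rfl⟩ := Submodule.mem_span_singleton.mp hw
      rw [map_smul, h, smul_zero])
    refine good_step A x φ hx hAx hc₀φ hrx ?_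
    set W := LinearMap.ker φ with hW
    set D := schur A x φ hAx with hD
    have hW1 : finrank K W + 1 = finrank K V := finrank_ker_functional hx
    have hWd : finrank K W = n + 2 := by omega
    have hb : Basis (Fin (n + 2)) K W := Module.finBasisOfFinrankEq K W hWd
    have hdetD : LinearMap.det D = 1 := by rw [← det_schur A x φ hx hAx hb, hdet]
    -- the fixed space of the Schur complement
    have hfix : LinearMap.ker (D - LinearMap.id) = (W ⊓ N).comap W.subtype := by
      ext w
      rw [LinearMap.mem_ker, LinearMap.sub_apply, LinearMap.id_apply, sub_eq_zero, schur_fixed_iff A hAx]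
      show (w : V) ∈ N ↔ (w : V) ∈ W ⊓ N
      rw [Submodule.mem_inf]
      exact ⟨fun h => ⟨w.2, h⟩, fun h => h.2⟩
    have hfixd : finrank K (LinearMap.ker (D - LinearMap.id)) = finrank K ↥(W ⊓ N) := by
      rw [hfix]; exact (Submodule.comapSubtypeEquivOfLe inf_le_left).finrank_eq
    have hsmall : finrank K ↥(W ⊓ N) + 3 ≤ finrank K V := by
      by_cases hbig : finrank K V ≤ finrank K N + 2
      · have hlt : finrank K ↥(W ⊓ N) < finrank K N := Submodule.finrank_lt_finrank_of_lt
          (lt_of_le_of_ne inf_le_right fun h => hφ₃ hbig ((Submodule.mem_dualAnnihilator _).mpr fun w hw =>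
            LinearMap.mem_ker.mp ((h.symm ▸ hw : w ∈ W ⊓ N).1)))
        omega
      · have := Submodule.finrank_mono (inf_le_right : W ⊓ N ≤ N)
        omega
    have hrkD : 2 ≤ finrank K (LinearMap.range (D - LinearMap.id)) := by
      have h : finrank K (LinearMap.range (D - LinearMap.id)) +
          finrank K (LinearMap.ker (D - LinearMap.id)) = finrank K W :=
        LinearMap.finrank_range_add_finrank_ker _
      omega
    refine ih W D hWd hdetD ?_ hrkD _ _ (fun h => hc0 (congrArg Subtype.val h)) (fun h => hφ₂ ?_)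
    · -- not scalar
      rintro ⟨l, hl⟩
      by_cases hcase : finrank K V ≤ finrank K N + 2 → n = 0 ∧ (2 : K) ≠ 0
      · refine hφ₄ hcase fun _ => ⟨l, fun w hw => ?_⟩
        have e := congrArg Subtype.val (hl ⟨w, LinearMap.mem_ker.mpr hw⟩)
        rwa [schur_apply] at e
      · rw [Classical.not_imp] at hcase
        obtain ⟨hbig, hn⟩ := hcase
        have hl1 : l = 1 := by
          rcases Nat.eq_zero_or_pos n with h0 | hpos
          · subst h0
            have h2 : (2 : K) = 0 := by
              by_contra h2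
              exact hn ⟨rfl, h2⟩
            have he : D = l • LinearMap.id := LinearMap.ext hl
            rw [he, LinearMap.det_smul, LinearMap.det_id, mul_one, hWd] at hdetD
            have h1 : (l - 1) * (l - 1) = 0 := by linear_combination hdetD + (1 - l) * h2
            exact sub_eq_zero.mp (mul_self_eq_zero.mp h1)
          · -- a fixed vector
            have h := Submodule.finrank_sup_add_finrank_inf_eq W N
            have h5 := Submodule.finrank_le (W ⊔ N)
            obtain ⟨w, hw, hw0⟩ := (Submodule.ne_bot_iff (W ⊓ N)).mp fun hb => by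
              rw [hb, finrank_bot] at h
              omega
            have hfw : D ⟨w, hw.1⟩ = ⟨w, hw.1⟩ := (schur_fixed_iff A hAx _).mpr hw.2
            rw [hl] at hfw
            have e := congrArg Subtype.val hfw
            have e' : (l - 1) • w = 0 := by
              rw [sub_smul, one_smul, sub_eq_zero]; exact e
            exact sub_eq_zero.mp ((smul_eq_zero.mp e').resolve_right hw0)
        have hzero : D - LinearMap.id = 0 := LinearMap.ext fun w => by
          rw [LinearMap.sub_apply, LinearMap.id_apply, hl, hl1, one_smul, sub_self, LinearMap.zero_apply]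
        rw [hzero, LinearMap.range_zero, finrank_bot] at hrkD
        omega
    · -- the first row is non-zero
      refine (Submodule.mem_dualAnnihilator _).mpr ?_
      rintro _ ⟨v, rfl⟩
      have h1 := LinearMap.congr_fun h ⟨v - φ v • x, by simp [W, hx]⟩
      simp only [LinearMap.comp_apply, Submodule.coe_subtype, map_sub, map_smul, hAx,
        LinearMap.zero_apply, smul_eq_mul, mul_one] at h1
      show φ (A v - v) = 0
      rw [map_sub]
      exact h1

end Cfsg.Agent.KnownB.LU
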